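import Cfsg.Agent.H885.Wf.Kill
import Cfsg.Agent.H885.Dsp.Idx
import Cfsg.Agent.Nodes.RGDChev
import Cfsg.Agent.S1082

/-!
# S3826: `D₄(q)` in characteristic three

helper885 (task 4270).
* `exists_ext` : `Γ ≤ Aut K` acts on the building of `K`, for a group `K` with a root group datum;
* `arow_D4`, `wfrow_D4`, `wfrow_tri` : the row of `D₄(3ᵏ) = PΩ⁺₈(3ᵏ)`, all automorphisms of order three.
-/

set_option autoImplicit false
set_option linter.unusedSectionVars false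

namespace Cfsg.Agent.H885.Wf

open CoxeterSystem Cfsg.Agent.ChevalleyStructure.CoxeterGeom Cfsg.Agent.Tits.Roots Cfsg.Agent.Tits.Core
  Cfsg.Agent.Tits.RootComb Cfsg.Agent.Nodes.Comb Cfsg.Agent.Nodes.Reps Cfsg.Agent.Nodes.BNOf Cfsg.Agent.Nodes.BNOf.RGD
  Cfsg.Agent.FixBN Cfsg.Agent.Tits.OfBN Cfsg.Agent.Tits.OppRes Cfsg.Agent.LieExceptional.BNPairCore
  Cfsg.Agent.OddHalf.Table.AutBldg Cfsg.Agent.OddHalf.Table.AutRGD Cfsg.Agent.OddHalf.Table.AutNorm
  Cfsg.Agent.Tits.Exchange Cfsg.Agent.H612.WModel Cfsg.Agent.H81.PJSum Cfsg.Agent.H523.Dsp Cfsg.Agent.Tits.Core.Bldg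
  Cfsg.Agent.H905.DC Cfsg.Agent.UGT.U2.FOne Cfsg.Agent.Nodes.RGDLib Cfsg.Agent.Tits Cfsg.Agent.H523.DspRgd
  Cfsg.Agent.Schreier.BNSch Cfsg.Agent.H533.Wf

universe u v

section Act

variable {I : Type*} [Fintype I] [DecidableEq I] {M : CoxeterMatrix I} {W : Type*} [Group W] {cs : CoxeterSystem M W} {C : Type*}
  {Δ : Bldg cs C} {K : Type v} [Group K] [MulAction K C] {p : ℕ} [Finite C] [Finite K] [Finite W] [F : OppRes.Cox cs]

/-- **The action of `Γ` on the building.** -/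
theorem exists_ext [Nonempty C] (S : Sys Δ K p) (hth : Δ.Thick) (htr : ∀ x y : C, ∃ k : K, k • x = y)
    (hfaith : FaithfulSMul K C)
    (hmv : ∀ τ : MulAut K, ∃ t : Mv Δ K, t.τ = τ) (Γ : Subgroup (MulAut K)) (inc : K →* Γ)
    (hinc : ∀ k, (inc k : MulAut K) = MulAut.conj k) :
    ∃ (_ : MulAction Γ C) (φ : Γ → (W ≃* W)) (σ : Γ → I → I), Ext S inc φ σ ∧
      (∀ g i j, M (σ g i) (σ g j) = M i j) ∧ ∀ g : Γ, (∀ x : C, g • x = x) → g = 1 := by
  choose t ht using hmv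
  let act : MulAction Γ C :=
    { smul := fun g x => (t g).θ x
      one_smul := fun x => Mv.θ_eq S hth (t := t ((1 : Γ) : MulAut K)) (t' := Mv.one Δ K)
        (fun g => by rw [ht]; rfl) x
      mul_smul := fun g g' x => Mv.θ_eq S hth (t := t ((g * g' : Γ) : MulAut K)) (t' := (t g).comp (t g'))
        (fun k => by
          change (t ((g * g' : Γ) : MulAut K)).τ k = (t g).τ ((t g').τ k)
          rw [ht, ht, ht]; rfl) x }
  refine ⟨act, fun g => (t g).φ, fun g => (t g).σ, ⟨hth, ?_, htr, ?_, ?_⟩, ?_, ?_⟩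
  · intro k x
    exact Mv.θ_eq S hth (t := t (inc k : MulAut K)) (t' := Mv.inner S k) (fun g => by rw [ht, hinc]; rfl) x
  · exact fun g x y => (t g).δ_θ x y
  · exact fun g i => (t g).φ_simple i
  · intro g i j
    rw [← LieRecognition.CoxForm.orderOf_eq cs, ← LieRecognition.CoxForm.orderOf_eq cs, ← (t g).φ_simple,
      ← (t g).φ_simple, ← map_mul]
    exact (t g).φ.orderOf_eq _
  · intro g hg
    apply Subtype.ext
    ext k
    have h1 : ∀ x : C, (g : MulAut K) k • x = k • x := by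
      intro x
      have h2 := (t g).θ_smul k x
      have h3 : ∀ x, (t g).θ x = x := hg
      rw [h3, h3, ht] at h2
      exact h2.symm
    exact hfaith.eq_of_smul_eq_smul h1

end Act

section Adj

variable {I : Type*} {M : CoxeterMatrix I} {W : Type*} [Group W] {cs : CoxeterSystem M W} {C : Type*}
  {Δ : Bldg cs C}

/-- a fixed chamber adjacent to a moved chamber -/
theorem exists_adj {θ : C → C} {x y : C} (hx : θ x = x) (hy : θ y ≠ y) :
    ∃ z w j, θ z = z ∧ Δ.δ z w = cs.simple j ∧ θ w ≠ w := by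
  have key : ∀ ω : List I, ∀ y, Δ.δ x y = cs.wordProd ω → θ y ≠ y →
      ∃ z w j, θ z = z ∧ Δ.δ z w = cs.simple j ∧ θ w ≠ w := by
    intro ω
    induction ω using List.reverseRecOn with
    | nil =>
      intro y hxy hy
      rw [cs.wordProd_nil] at hxy
      rw [← Δ.eq_of_δ_eq_one hxy] at hy
      exact absurd hx hy
    | append_singleton ω i ih =>
      intro b hab hb
      obtain ⟨z, hz1, hz2⟩ := Δ.exists_step x b i
      rw [hab, cs.wordProd_append, cs.wordProd_singleton, mul_assoc, cs.simple_mul_simple_self, mul_one] at hz2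
      by_cases hz : θ z = z
      · exact ⟨z, b, i, hz, Δ.δ_symm_simple hz1, hb⟩
      · exact ih z hz2 hz
  obtain ⟨ω, hω⟩ := cs.wordProd_surjective (Δ.δ x y)
  exact key ω y hω.symm hy

end Adj

section DFour

variable {W : Type*} [Group W] {cs : CoxeterSystem Lie.coxeterD4 W} {C : Type*}
  {Δ : Bldg cs C} {K : Type*} [Group K] [MulAction K C] {G : Type v} [Group G] [MulAction G C]
  [Finite C] [Finite G] [F : OppRes.Cox cs] {S : Sys Δ K 3} {inc : K →* G} {φ : G → (W ≃* W)}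
  {σ : G → Fin 4 → Fin 4}

/-- the entries of a Coxeter matrix -/
def ent {l : ℕ} (M : CoxeterMatrix (Fin l)) (i j : Fin l) : ℕ := M i j

/-- symmetries of the diagram -/
theorem symD4' : ∀ σ : Equiv.Perm (Fin 4), (∀ i j, ent Lie.coxeterD4 (σ i) (σ j) = ent Lie.coxeterD4 i j) →
    σ 1 = 1 ∧ (σ ^ 3 = 1 → (∀ i, σ i = i) ∨ ∀ i, i ≠ 1 → σ i ≠ i) := by
  decide +kernel

theorem bondD4 : ∀ i : Fin 4, i ≠ 1 → ent Lie.coxeterD4 1 i = 3 ∧ ent Lie.coxeterD4 i 1 = 3 := by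
  decide +kernel

/-- **No configuration acts on a building of type `D₄` in characteristic three.** -/
theorem Ext.false_D4 [Nonempty C] (E : Ext S inc φ σ) (hM : ∀ g i j, Lie.coxeterD4 (σ g i) (σ g j) = Lie.coxeterD4 i j)
    (hfaith : ∀ g : G, (∀ x : C, g • x = x) → g = 1) {Ssub : Subgroup G} {𝒞 𝒟 : Set G} (h : Cfg 3 Ssub 𝒞 𝒟) :
    False := by
  have h3p : Fact (Nat.Prime 3) := ⟨Nat.prime_three⟩
  -- the types
  let P : G → Equiv.Perm (Fin 4) := fun g =>
    Equiv.ofBijective (σ g) (Finite.injective_iff_bijective.1 (E.σ_injective g))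
  have hPa : ∀ g i, P g i = σ g i := fun g i => rfl
  have hP : ∀ g, ∀ i j, ent Lie.coxeterD4 (P g i) (P g j) = ent Lie.coxeterD4 i j := fun g i j => hM g i j
  have hσo : ∀ g, σ g 1 = 1 := fun g => (symD4' (P g) (hP g)).1
  have hσmul : ∀ g g' i, σ (g * g') i = σ g (σ g' i) := by
    intro g g' i
    apply F.inj
    rw [← E.φ_simple, E.φ_mul, E.φ_simple, E.φ_simple]
  have hσone : ∀ i, σ 1 i = i := by
    intro i
    apply F.inj
    rw [← E.φ_simple, ← map_one inc, E.φ_inc]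
  have hP3 : ∀ c : G, c ^ 3 = 1 → (P c) ^ 3 = 1 := by
    intro c hc
    ext1 i
    rw [Equiv.Perm.one_apply, pow_succ, pow_two, Equiv.Perm.mul_apply, Equiv.Perm.mul_apply, hPa, hPa, hPa,
      ← hσmul, ← hσmul, ← pow_two, ← pow_succ, hc, hσone]
  have htype : ∀ c : G, c ^ 3 = 1 → (∀ i, σ c i = i) ∨ ∀ i, i ≠ 1 → σ c i ≠ i :=
    fun c hc => (symD4' (P c) (hP c)).2 (hP3 c hc)
  have hφid : ∀ c : G, (∀ i, σ c i = i) → ∀ w, φ c w = w := by
    intro c hc w
    obtain ⟨ω, rfl⟩ := cs.wordProd_surjective w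
    induction ω with
    | nil => rw [cs.wordProd_nil, map_one]
    | cons i ω ih => rw [cs.wordProd_cons, map_mul, ih, E.φ_simple, hc]
  have pw : ∀ {c : G}, orderOf c = 3 → c ^ 3 = 1 := fun {c} hc => by rw [← hc, pow_orderOf_eq_one]
  -- a moved chamber next to a fixed one
  have hmv : ∀ d : G, orderOf d = 3 → ∃ z w j, d • z = z ∧ Δ.δ z w = cs.simple j ∧ d • w ≠ w := by
    intro d hd
    obtain ⟨x, hx⟩ := E.exists_fixed_one hd
    obtain ⟨y, hy⟩ : ∃ y : C, d • y ≠ y := by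
      by_contra hcon
      push Not at hcon
      have h1 := hfaith d hcon
      rw [h1, orderOf_one] at hd
      norm_num at hd
    exact exists_adj (Δ := Δ) (θ := fun x => d • x) hx hy
  -- the types of the moved chambers
  have hmv' : ∀ d : G, orderOf d = 3 → (∀ i, σ d i = i) → ∀ i j, (i = 1 ∨ j = 1) → ∀ z w, d • z = z →
      Δ.δ z w = cs.simple j → d • w ≠ w → ∃ z w, d • z = z ∧ Δ.δ z w = cs.simple i ∧ d • w ≠ w := by
    intro d hd hσd i j hij z w hz hzw hw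
    by_cases h1 : i = j
    · subst h1; exact ⟨z, w, hz, hzw, hw⟩
    · refine exists_moved (Δ := Δ) (θ := fun x => d • x) (fun a b => ?_) h1 ?_ hz hzw hw
      · rw [E.δ_smul, hφid d hσd]
      · rcases hij with rfl | rfl
        · exact (bondD4 j (Ne.symm h1)).1
        · exact (bondD4 i h1).2
  -- elements rotating the types
  have hrot : ∀ {𝒞 𝒟 : Set G}, Cfg 3 Ssub 𝒞 𝒟 → ∀ c ∈ 𝒞, ∀ d ∈ 𝒟, (∀ i, i ≠ 1 → σ c i ≠ i) → False := by
    intro 𝒞 𝒟 h c hc d hd hσc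
    have hJ : ∀ (g : G), ∀ i ∈ ({1}ᶜ : Set (Fin 4)), σ g i ∈ ({1}ᶜ : Set (Fin 4)) := by
      intro g i hi h1
      apply hi
      apply E.σ_injective g
      rw [hσo]
      exact h1
    have h0 : (0 : Fin 4) ∈ ({1}ᶜ : Set (Fin 4)) := by decide
    obtain ⟨z₀, hz₀, a, ha, hne⟩ : ∃ z₀ : C, d • z₀ = z₀ ∧ ∃ a ∈ Δ.Res ({1}ᶜ : Set (Fin 4)) z₀, d • a ≠ a := by
      obtain ⟨z, w, j, hz, hzw, hw⟩ := hmv d (h.ordD d hd)
      rcases htype d (pw (h.ordD d hd)) with h1 | h1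
      · by_cases hj : j = 1
        · obtain ⟨z', w', hz', hzw', hw'⟩ := hmv' d (h.ordD d hd) h1 0 j (Or.inr hj) z w hz hzw hw
          exact ⟨z', hz', w', by rw [Δ.mem_Res, hzw']; exact simple_mem_WJ cs h0, hw'⟩
        · exact ⟨z, hz, w, by rw [Δ.mem_Res, hzw]; exact simple_mem_WJ cs hj, hw⟩
      · obtain ⟨a, ha⟩ := Δ.exists_δ z (cs.simple 0)
        refine ⟨z, hz, a, by rw [Δ.mem_Res, ha]; exact simple_mem_WJ cs h0, fun h2 => ?_⟩
        have h3 := E.δ_smul d z a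
        rw [hz, h2, ha, E.φ_simple] at h3
        exact h1 0 (by decide) (F.inj h3).symm
    exact E.false_of_rot h hJ (o := 1) (fun h => h rfl) hc hd hz₀ ⟨a, ha, hne⟩ hσc
  obtain ⟨c, hc⟩ := h.neC
  obtain ⟨d, hd⟩ := h.neD
  rcases htype c (pw (h.ordC c hc)) with h1 | h1
  · rcases htype d (pw (h.ordD d hd)) with h2 | h2
    · obtain ⟨z, w, j, hz, hzw, hw⟩ := hmv c (h.ordC c hc)
      obtain ⟨x₀, y₀, e1, e2, e3⟩ := hmv' c (h.ordC c hc) h1 1 j (Or.inl rfl) z w hz hzw hw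
      obtain ⟨z, w, j, hz, hzw, hw⟩ := hmv d (h.ordD d hd)
      obtain ⟨z₀, u₀, f1, f2, f3⟩ := hmv' d (h.ordD d hd) h2 1 j (Or.inl rfl) z w hz hzw hw
      exact E.false_of_pan h (o := 1) (i := 0) hσo (by decide) hc hd e1 e2 e3 f1 f2 f3
    · exact hrot h.symm d hd c hc h2
  · exact hrot h c hc d hd h1

end DFour

section Row

variable (F : Type) [Field F] [Finite F] [CharP F 3]

open Cfsg.Agent.Nodes.RGDChev Cfsg.Lie in
/-- **The row of `D₄(3ᵏ)`.** -/
theorem arow_D4 : ARow 3 ↥(chevD4.group F) := by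
  intro Γ 𝒞 𝒟 h
  have h3p : Fact (Nat.Prime 3) := ⟨Nat.prime_three⟩
  have hs := h.simple
  have hp : IsType chevD4 4 coxeterD4 := by simp [IsType, typeList]
  have hW := finite_W hp coxeterD4.toCoxeterSystem
  have hfin : Finite ↥(chevD4.group F) := inferInstance
  have R := rgd (K := F) hp coxeterD4.toCoxeterSystem 3
  have hG := G1_eq_top (K := F) hp coxeterD4.toCoxeterSystem
  have hgen := rgd_gen_of_G1 R hG
  have hne : ((R.bnPair hgen).S).Nonempty := ⟨_, ((eS R hgen) (0 : Fin 4)).2⟩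
  have hcore := normalCore_eq_bot (R.bnPair hgen) hne
  obtain ⟨hN', cs', hcs, hfin', hS⟩ := exists_setup R hgen hcore
  have hth := Tits.OfBN.thick (R.bnPair hgen) (eS R hgen) cs' hcs
  have S := FixBN.OfBN.sys (eS R hgen) cs' hcs hS
  have hSA := strongAct (R.bnPair hgen) (eS R hgen) cs' hcs hcore
  have hnc : Nonempty (↥(chevD4.group F) ⧸ (R.bnPair hgen).B) := ⟨QuotientGroup.mk 1⟩
  obtain ⟨act, φ, σ, E, hM, hf⟩ := exists_ext S hth (fun x y => MulAction.exists_smul_eq _ x y) hSA.faithful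
    (fun τ => exists_mv hS (eS R hgen) cs' hcs τ) Γ h.inc h.coe_inc
  exact E.false_D4 hM hf h.toCfg

theorem wfrow_D4 : WfRow.{u, 0} 3 ↥(Lie.chevD4.group F) := WfRow.of_arow (arow_D4 F)

/-- **The row of `PΩ⁺₈(3ᵏ)`**, all automorphisms of order three. -/
theorem wfrow_tri : WfRow.{u, 0} 3 (Cfsg.POmega F (Cfsg.quadFormPlus 4 F)) := by
  obtain ⟨f⟩ := S1082.result (F := F)
  exact (wfrow_D4 F).congr f

end Row

end Cfsg.Agent.H885.Wf
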