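import Cfsg.Agent.H885.Wf.Rot

/-!
# S3826: type rotating elements in the defining characteristic (2)

helper885. `Ext` : `G ≥ K` acts on the building of `K`.
* `Ext.exists_fixed` : a `p`-subgroup of `G` fixes a chamber;
* `Ext.false_of_res` : the kill for a residue;
* `Ext.false_of_rot` : `c ∈ 𝒞` moves all the types of `J`, `d ∈ 𝒟` fixes `z₀` and is not trivial on the
  residue of type `J` of `z₀`: no configuration;
* `Ext.false_of_pan` : `c`, `d` are both not trivial on a panel of type `j` of fixed chambers: no configuration.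
-/

set_option autoImplicit false
set_option linter.unusedSectionVars false

namespace Cfsg.Agent.H885.Wf

open Cfsg Cfsg.Agent.Tits.Core Cfsg.Agent.Tits.Core.Bldg Cfsg.Agent.Tits Cfsg.Agent.Tits.Exchange
open CoxeterSystem Cfsg.Agent.FixBN Cfsg.Agent.UGT.U2.FOne Cfsg.Agent.H533.Wf

universe u

section Kill

variable {I : Type*} {M : CoxeterMatrix I} {W : Type*} [Group W] {cs : CoxeterSystem M W} {C : Type*}
  {Δ : Bldg cs C} {K : Type*} [Group K] [MulAction K C] {p : ℕ}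
  {G : Type u} [Group G] [MulAction G C]

/-- The action of `G ≥ K` on the building. -/
structure Ext (S : Sys Δ K p) (inc : K →* G) (φ : G → (W ≃* W)) (σ : G → I → I) : Prop where
  thick : Δ.Thick
  smul : ∀ (k : K) (x : C), inc k • x = k • x
  trans : ∀ x y : C, ∃ k : K, k • x = y
  δ_smul : ∀ (g : G) (x y : C), Δ.δ (g • x) (g • y) = φ g (Δ.δ x y)
  φ_simple : ∀ g i, φ g (cs.simple i) = cs.simple (σ g i)

section card

variable [Finite C] [F : OppRes.Cox cs]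

/-- An invariant set of chambers containing `x` has order `≡ 1` modulo `p`. -/
theorem card_modEq (S : Sys Δ K p) [hp : Fact p.Prime] (hth : Δ.Thick) {x : C} {A : Set C} (hx : x ∈ A)
    (hA : ∀ u ∈ S.U x, ∀ a ∈ A, u • a ∈ A) : Nat.card A ≡ 1 [MOD p] := by
  let act : MulAction (S.U x) A :=
    { smul := fun u a => ⟨(u : K) • (a : C), hA u u.2 a a.2⟩
      one_smul := fun a => Subtype.ext (one_smul K (a : C))
      mul_smul := fun u v a => Subtype.ext (mul_smul (u : K) (v : K) (a : C)) }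
  have h1 := (S.isP x).card_modEq_card_fixedPoints A
  have h2 : Nat.card (MulAction.fixedPoints (S.U x) A) = 1 := by
    rw [Nat.card_eq_one_iff_unique]
    refine ⟨⟨fun a b => ?_⟩, ⟨⟨⟨x, hx⟩, fun u => Subtype.ext (S.fix x u u.2)⟩⟩⟩
    have key : ∀ a : MulAction.fixedPoints (S.U x) A, x = ((a : A) : C) := by
      intro a
      apply eq_of_fix S hth
      intro u hu
      exact congrArg Subtype.val (a.2 ⟨u, hu⟩)
    apply Subtype.ext
    apply Subtype.ext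
    rw [← key a, ← key b]
  rw [h2] at h1
  exact h1

theorem not_dvd_card (S : Sys Δ K p) [hp : Fact p.Prime] (hth : Δ.Thick) {x : C} {A : Set C} (hx : x ∈ A)
    (hA : ∀ u ∈ S.U x, ∀ a ∈ A, u • a ∈ A) : ¬ p ∣ Nat.card A := by
  intro h
  have h1 := card_modEq S hth hx hA
  have h2 : 1 ≡ 0 [MOD p] := h1.symm.trans ((Nat.modEq_zero_iff_dvd).2 h)
  have h3 := (Nat.modEq_zero_iff_dvd).1 h2
  exact hp.out.one_lt.ne' (Nat.dvd_one.1 h3)

end card

namespace Ext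

variable {S : Sys Δ K p} {inc : K →* G} {φ : G → (W ≃* W)} {σ : G → I → I} (E : Ext S inc φ σ)

include E

theorem φ_mul [Nonempty C] (g g' : G) (w : W) : φ (g * g') w = φ g (φ g' w) := by
  obtain ⟨y, hy⟩ := Δ.exists_δ (Classical.arbitrary C) w
  rw [← hy, ← E.δ_smul, ← E.δ_smul, ← E.δ_smul, mul_smul, mul_smul]

theorem φ_inc [Nonempty C] (k : K) (w : W) : φ (inc k) w = w := by
  obtain ⟨y, hy⟩ := Δ.exists_δ (Classical.arbitrary C) w
  rw [← hy, ← E.δ_smul, E.smul, E.smul, S.iso]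

theorem φ_inc_mul [Nonempty C] (k : K) (g : G) (w : W) : φ (inc k * g * (inc k)⁻¹) w = φ g w := by
  rw [E.φ_mul, E.φ_mul, E.φ_inc, ← map_inv, E.φ_inc]

variable [Finite C] [F : OppRes.Cox cs]

theorem σ_injective (g : G) : Function.Injective (σ g) := by
  intro i j hij
  apply F.inj
  apply (φ g).injective
  rw [E.φ_simple, E.φ_simple, hij]

/-- **A `p`-subgroup fixes a chamber.** -/
theorem exists_fixed [Nonempty C] [hp : Fact p.Prime] {V : Subgroup G} (hV : IsPGroup p V) :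
    ∃ x : C, ∀ v ∈ V, v • x = x := by
  have h1 : ¬ p ∣ Nat.card C := by
    have h2 := not_dvd_card S E.thick (x := Classical.arbitrary C) (A := Set.univ) (Set.mem_univ _)
      (fun _ _ _ _ => Set.mem_univ _)
    rwa [Nat.card_congr (Equiv.Set.univ C)] at h2
  obtain ⟨x, hx⟩ := hV.nonempty_fixed_point_of_prime_not_dvd_card C h1
  exact ⟨x, fun v hv => hx ⟨v, hv⟩⟩

theorem exists_fixed_one [Nonempty C] [hp : Fact p.Prime] {c : G} (hc : orderOf c = p) :
    ∃ x : C, c • x = x := by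
  have hz : IsPGroup p (Subgroup.zpowers c) := by
    refine IsPGroup.of_card (n := 1) ?_
    rw [Nat.card_zpowers, pow_one, hc]
  obtain ⟨x, hx⟩ := E.exists_fixed hz
  exact ⟨x, hx c (Subgroup.mem_zpowers c)⟩

/-- the mover on pairs of chambers -/
theorem exists_pair {x y a b : C} (h : Δ.δ x y = Δ.δ a b) : ∃ k : K, k • x = a ∧ k • y = b := by
  obtain ⟨k, hk⟩ := E.trans x a
  have h1 : Δ.δ a (k • y) = Δ.δ a b := by rw [← h, ← hk, S.iso]
  obtain ⟨u, hu, hub⟩ := S.exists_move h1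
  refine ⟨u * k, ?_, ?_⟩
  · rw [mul_smul, hk, S.fix a u hu]
  · rw [mul_smul, hub]

end Ext

/-- The stabiliser of a residue. -/
def RS (Δ : Bldg cs C) (G : Type u) [Group G] [MulAction G C] (J : Set I)
    (hJ : ∀ (g : G) (a b : C), Δ.δ a b ∈ WJ cs J → Δ.δ (g • a) (g • b) ∈ WJ cs J) (x₀ : C) : Subgroup G where
  carrier := {g | g • x₀ ∈ Δ.Res J x₀}
  one_mem' := by
    change (1 : G) • x₀ ∈ Δ.Res J x₀
    rw [one_smul]
    exact Δ.self_mem_Res J x₀
  mul_mem' := by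
    intro g g' hg hg'
    change (g * g') • x₀ ∈ Δ.Res J x₀
    rw [mul_smul]
    exact Δ.mem_Res_trans hg (hJ g _ _ hg')
  inv_mem' := by
    intro g hg
    have h1 := hJ g⁻¹ _ _ hg
    rw [inv_smul_smul] at h1
    exact Δ.mem_Res_symm h1

/-- its action on the residue -/
@[reducible]
def RSact (Δ : Bldg cs C) (G : Type u) [Group G] [MulAction G C] (J : Set I)
    (hJ : ∀ (g : G) (a b : C), Δ.δ a b ∈ WJ cs J → Δ.δ (g • a) (g • b) ∈ WJ cs J) (x₀ : C) :
    MulAction (RS Δ G J hJ x₀) (Δ.Res J x₀) where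
  smul g a := ⟨(g : G) • (a : C), Δ.mem_Res_trans g.2 (hJ g _ _ a.2)⟩
  one_smul a := Subtype.ext (one_smul G (a : C))
  mul_smul g h a := Subtype.ext (mul_smul (g : G) (h : G) (a : C))

namespace Ext

variable {S : Sys Δ K p} {inc : K →* G} {φ : G → (W ≃* W)} {σ : G → I → I} (E : Ext S inc φ σ)
  [Finite C] [F : OppRes.Cox cs]

include E

/-- **The kill for a residue**: every pair of chambers of the residue is related by a chain of pairs `(n a, a)`, up to the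
action of `K`. -/
theorem false_of_res [Finite G] [hp : Fact p.Prime] {Ssub : Subgroup G} {𝒞 𝒟 : Set G} (h : Cfg p Ssub 𝒞 𝒟) {J : Set I}
    (hJ : ∀ (g : G) (a b : C), Δ.δ a b ∈ WJ cs J → Δ.δ (g • a) (g • b) ∈ WJ cs J) {o : I} (ho : o ∉ J)
    {x₀ z₀ : C} {c d : G} (hc : c ∈ 𝒞) (hd : d ∈ 𝒟) (hcx : c • x₀ = x₀) (hdz : d • z₀ = z₀)
    (hmv : ∃ a ∈ Δ.Res J z₀, d • a ≠ a)
    (hrel : ∀ R : C → C → Prop, (∀ a, R a a) → (∀ a b, R a b → R b a) → (∀ a b e, R a b → R b e → R a e) →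
      (∀ z ∈ Δ.Res J x₀, ∀ a ∈ Δ.Res J x₀, ∀ b, Δ.δ a b = Δ.δ z (c • z) → R a b) →
      ∀ a ∈ Δ.Res J x₀, ∀ b ∈ Δ.Res J x₀, R a b) : False := by
  have hne : Nonempty C := ⟨x₀⟩
  -- `d` fixes `x₀`
  obtain ⟨k₁, hk₁⟩ := E.trans z₀ x₀
  have hd1 : inc k₁ * d * (inc k₁)⁻¹ ∈ 𝒟 := h.conjD _ d hd
  have hdx : (inc k₁ * d * (inc k₁)⁻¹) • x₀ = x₀ := by
    rw [mul_smul, mul_smul, inv_smul_eq_iff.2 (show x₀ = inc k₁ • z₀ by rw [E.smul, hk₁]), hdz, E.smul, hk₁]
  have hmv' : ∃ a ∈ Δ.Res J x₀, (inc k₁ * d * (inc k₁)⁻¹) • a ≠ a := by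
    obtain ⟨a, ha, hne⟩ := hmv
    refine ⟨inc k₁ • a, ?_, ?_⟩
    · have h1 := hJ (inc k₁) _ _ ha
      rwa [E.smul k₁ z₀, hk₁] at h1
    · rw [mul_smul, mul_smul, inv_smul_smul]
      intro h1
      exact hne (MulAction.injective _ h1)
  have hmem : ∀ k : K, k • x₀ ∈ Δ.Res J x₀ → inc k ∈ RS Δ G J hJ x₀ := by
    intro k hk
    change inc k • x₀ ∈ Δ.Res J x₀
    rwa [E.smul]
  have htr : ∀ a ∈ Δ.Res J x₀, ∀ b ∈ Δ.Res J x₀, ∀ k : K, k • a = b → inc k ∈ RS Δ G J hJ x₀ := by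
    intro a ha b hb k hk
    apply hmem
    have h1 := hJ (inc k) _ _ (Δ.mem_Res_symm ha)
    rw [E.smul, E.smul, hk] at h1
    exact Δ.mem_Res_trans hb h1
  let act := RSact Δ G J hJ x₀
  have hpre : MulAction.IsPretransitive (RS Δ G J hJ x₀) (Δ.Res J x₀) := by
    refine ⟨fun a b => ?_⟩
    obtain ⟨k, hk⟩ := E.trans (a : C) b
    refine ⟨⟨inc k, htr _ a.2 _ b.2 k hk⟩, Subtype.ext ?_⟩
    change inc k • (a : C) = b
    rw [E.smul, hk]
  have hΩ : ¬ p ∣ Nat.card (Δ.Res J x₀) := by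
    refine not_dvd_card S E.thick (x := x₀) (Δ.self_mem_Res J x₀) fun u hu a ha => ?_
    have h1 := hJ (inc u) _ _ ha
    rw [E.smul, E.smul, S.fix x₀ u hu] at h1
    exact h1
  have hH : RS Δ G J hJ x₀ ≠ ⊤ := by
    intro htop
    obtain ⟨y, hy⟩ := Δ.exists_δ x₀ (cs.simple o)
    obtain ⟨k, hk⟩ := E.trans x₀ y
    have h1 : inc k ∈ RS Δ G J hJ x₀ := by rw [htop]; exact Subgroup.mem_top _
    have h2 : inc k • x₀ ∈ Δ.Res J x₀ := h1
    rw [E.smul, hk, mem_Res, hy] at h2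
    exact ho (Cox.mem_of_simple_mem h2)
  have hcH : c ∈ RS Δ G J hJ x₀ := by
    change c • x₀ ∈ Δ.Res J x₀
    rw [hcx]
    exact Δ.self_mem_Res J x₀
  have hdH : inc k₁ * d * (inc k₁)⁻¹ ∈ RS Δ G J hJ x₀ := by
    change (inc k₁ * d * (inc k₁)⁻¹) • x₀ ∈ Δ.Res J x₀
    rw [hdx]
    exact Δ.self_mem_Res J x₀
  refine h.false_of_local_set (Ω := Δ.Res J x₀) hH hΩ (c := ⟨c, hcH⟩) (d := ⟨_, hdH⟩) hc hd1 ?_ ?_
  · -- transitivity of `⟨c ^ H⟩`
    set N := Subgroup.normalClosure ({⟨c, hcH⟩} : Set (RS Δ G J hJ x₀)) with hN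
    have hcN : (⟨c, hcH⟩ : RS Δ G J hJ x₀) ∈ N := Subgroup.subset_normalClosure rfl
    have key := hrel (fun a b => ∃ g ∈ N, (g : G) • a = b) (fun a => ⟨1, one_mem _, one_smul G a⟩)
      (fun a b => by
        rintro ⟨g, hg, rfl⟩
        exact ⟨g⁻¹, inv_mem hg, inv_smul_smul (g : G) a⟩)
      (fun a b e => by
        rintro ⟨g, hg, rfl⟩ ⟨g', hg', rfl⟩
        exact ⟨g' * g, mul_mem hg' hg, mul_smul (g' : G) (g : G) a⟩)
      (by
        intro z hz a ha b hab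
        obtain ⟨k, hk1, hk2⟩ := E.exists_pair hab.symm
        refine ⟨⟨inc k, htr _ hz _ ha k hk1⟩ * ⟨c, hcH⟩ * ⟨inc k, htr _ hz _ ha k hk1⟩⁻¹,
          Subgroup.normalClosure_normal.conj_mem _ hcN _, ?_⟩
        change (inc k * c * (inc k)⁻¹) • a = b
        rw [← hk1, ← E.smul k z, mul_smul, mul_smul, inv_smul_smul, E.smul, hk2])
    intro a b
    obtain ⟨g, hg, hgab⟩ := key a a.2 b b.2
    exact ⟨g, hg, Subtype.ext hgab⟩
  · obtain ⟨a, ha, hne⟩ := hmv'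
    exact ⟨⟨a, ha⟩, fun h1 => hne (congrArg Subtype.val h1)⟩

/-- **The kill for elements moving all the types of `J`.** -/
theorem false_of_rot [Finite G] [hp : Fact p.Prime] {Ssub : Subgroup G} {𝒞 𝒟 : Set G} (h : Cfg p Ssub 𝒞 𝒟) {J : Set I}
    (hJ : ∀ (g : G), ∀ i ∈ J, σ g i ∈ J) {o : I} (ho : o ∉ J)
    {z₀ : C} {c d : G} (hc : c ∈ 𝒞) (hd : d ∈ 𝒟) (hdz : d • z₀ = z₀)
    (hmv : ∃ a ∈ Δ.Res J z₀, d • a ≠ a) (hrot : ∀ i ∈ J, σ c i ≠ i) : False := by
  have hne : Nonempty C := ⟨z₀⟩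
  obtain ⟨x₀, hcx⟩ := E.exists_fixed_one (h.ordC c hc)
  have hWJ : ∀ (g : G), ∀ w ∈ WJ cs J, φ g w ∈ WJ cs J := by
    intro g w hw
    unfold WJ at hw
    induction hw using Subgroup.closure_induction with
    | mem x hx =>
      obtain ⟨i, hi, rfl⟩ := hx
      rw [E.φ_simple]
      exact simple_mem_WJ cs (hJ g i hi)
    | one => rw [map_one]; exact one_mem _
    | mul x y _ _ hx hy => rw [map_mul]; exact mul_mem hx hy
    | inv x _ hx => rw [map_inv]; exact inv_mem hx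
  refine E.false_of_res h (J := J) (fun g a b hab => by rw [E.δ_smul]; exact hWJ g _ hab) ho hc hd hcx hdz hmv ?_
  intro R hr hs ht h0
  have l2 : ∀ {a b : I}, a ≠ b → cs.length (cs.simple a * cs.simple b) = 2 := fun h => H969.Rot.length_two cs h
  have ls : ∀ a : I, cs.length (cs.simple a) = 1 := cs.length_simple
  have hstep : ∀ {a b : C} {i : I}, i ∈ J → a ∈ Δ.Res J x₀ → Δ.δ a b = cs.simple i → b ∈ Δ.Res J x₀ := by
    intro a b i hi ha hab
    exact Δ.mem_Res_trans ha (by rw [mem_Res, hab]; exact simple_mem_WJ cs hi)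
  -- (A)
  have hA : ∀ i ∈ J, ∀ a ∈ Δ.Res J x₀, ∀ b, Δ.δ a b = cs.simple i * cs.simple (σ c i) → R a b := by
    intro i hi a ha b hab
    obtain ⟨z, hz⟩ := Δ.exists_δ x₀ (cs.simple i)
    have h1 : Δ.δ x₀ (c • z) = cs.simple (σ c i) := by
      rw [← E.φ_simple, ← hz, ← E.δ_smul, hcx]
    have h2 : Δ.δ z (c • z) = cs.simple i * cs.simple (σ c i) :=
      Δ.δ_mul_of (Δ.δ_symm_simple hz) h1 (by rw [l2 (hrot i hi).symm, ls, ls])
    exact h0 z (hstep hi (Δ.self_mem_Res J x₀) hz) a ha b (hab.trans h2.symm)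
  -- (B)
  have hB : ∀ i ∈ J, ∀ a ∈ Δ.Res J x₀, ∀ b, Δ.δ a b = cs.simple i → R a b := by
    intro i hi a ha b hab
    obtain ⟨a', haa', ha'b⟩ : ∃ a', Δ.δ a a' = cs.simple i ∧ a' ≠ b := by
      obtain ⟨y, z, hyz, hy, hz⟩ := E.thick a i
      by_cases h1 : y = b
      · exact ⟨z, hz, fun h2 => hyz (h1.trans h2.symm)⟩
      · exact ⟨y, hy, h1⟩
    have hba' : Δ.δ b a' = cs.simple i := by
      rcases Δ.step_left (z := a') (Δ.δ_symm_simple hab) with h1 | h1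
      · exfalso
        rw [haa', cs.simple_mul_simple_self] at h1
        exact ha'b (Δ.eq_of_δ_eq_one h1).symm
      · rw [h1, haa']
    obtain ⟨u, hu⟩ := Δ.exists_δ a' (cs.simple (σ c i))
    have h1 : Δ.δ a u = cs.simple i * cs.simple (σ c i) :=
      Δ.δ_mul_of haa' hu (by rw [l2 (hrot i hi).symm, ls, ls])
    have h2 : Δ.δ b u = cs.simple i * cs.simple (σ c i) :=
      Δ.δ_mul_of hba' hu (by rw [l2 (hrot i hi).symm, ls, ls])
    exact ht _ _ _ (hA i hi a ha u h1) (hs _ _ (hA i hi b (hstep hi ha hab) u h2))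
  -- (C)
  have hC : ∀ ω : List I, (∀ i ∈ ω, i ∈ J) → ∀ a ∈ Δ.Res J x₀, ∀ b, Δ.δ a b = cs.wordProd ω → R a b := by
    intro ω
    induction ω using List.reverseRecOn with
    | nil =>
      intro _ a _ b hab
      rw [cs.wordProd_nil] at hab
      rw [Δ.eq_of_δ_eq_one hab]
      exact hr b
    | append_singleton ω i ih =>
      intro hω a ha b hab
      obtain ⟨z, hz1, hz2⟩ := Δ.exists_step a b i
      rw [hab, cs.wordProd_append, cs.wordProd_singleton, mul_assoc, cs.simple_mul_simple_self, mul_one] at hz2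
      have hi : i ∈ J := hω i (by simp)
      have h1 := ih (fun j hj => hω j (by simp [hj])) a ha z hz2
      have hz : z ∈ Δ.Res J x₀ :=
        Δ.mem_Res_trans ha (by rw [mem_Res, hz2]; exact wordProd_mem_WJ cs fun j hj => hω j (by simp [hj]))
      exact ht _ _ _ h1 (hB i hi z hz b (Δ.δ_symm_simple hz1))
  intro a ha b hb
  have h1 : Δ.δ a b ∈ WJ cs J := Δ.δ_mem_of_mem_Res ha hb
  obtain ⟨ω, hω, h2⟩ := exists_word_of_mem_WJ cs h1
  exact hC ω hω a ha b h2.symm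

/-- **The kill for a panel.** -/
theorem false_of_pan [Finite G] [hp : Fact p.Prime] {Ssub : Subgroup G} {𝒞 𝒟 : Set G} (h : Cfg p Ssub 𝒞 𝒟) {o i : I}
    (hσ : ∀ g : G, σ g o = o) (hi : i ≠ o) {x₀ y₀ z₀ u₀ : C} {c d : G} (hc : c ∈ 𝒞) (hd : d ∈ 𝒟) (hcx : c • x₀ = x₀)
    (hxy : Δ.δ x₀ y₀ = cs.simple o) (hcy : c • y₀ ≠ y₀) (hdz : d • z₀ = z₀) (hzu : Δ.δ z₀ u₀ = cs.simple o)
    (hdu : d • u₀ ≠ u₀) : False := by
  have hne : Nonempty C := ⟨z₀⟩
  have hW : ∀ w ∈ WJ cs {o}, w = 1 ∨ w = cs.simple o := by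
    intro w hw
    unfold WJ at hw
    rw [Set.image_singleton] at hw
    induction hw using Subgroup.closure_induction with
    | mem x hx => exact Or.inr hx
    | one => exact Or.inl rfl
    | mul x y _ _ hx hy =>
      rcases hx with rfl | rfl <;> rcases hy with rfl | rfl <;> simp
    | inv x _ hx => rcases hx with rfl | rfl <;> simp
  have hWJ : ∀ (g : G), ∀ w ∈ WJ cs {o}, φ g w ∈ WJ cs {o} := by
    intro g w hw
    rcases hW w hw with rfl | rfl
    · rw [map_one]; exact one_mem _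
    · rw [E.φ_simple, hσ]
      exact simple_mem_WJ cs (Set.mem_singleton o)
  have hso : cs.simple o ∈ WJ cs {o} := simple_mem_WJ cs (Set.mem_singleton o)
  refine E.false_of_res h (J := {o}) (o := i) (fun g a b hab => by rw [E.δ_smul]; exact hWJ g _ hab) hi
    hc hd hcx hdz ⟨u₀, by rw [mem_Res, hzu]; exact hso, hdu⟩ ?_
  intro R hr hs ht h0 a ha b hb
  have h1 : Δ.δ x₀ (c • y₀) = cs.simple o := by rw [← hσ c, ← E.φ_simple, ← hxy, ← E.δ_smul, hcx]
  have h2 : Δ.δ y₀ (c • y₀) = cs.simple o := by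
    rcases Δ.step_left (z := c • y₀) (Δ.δ_symm_simple hxy) with h3 | h3
    · exfalso
      rw [h1, cs.simple_mul_simple_self] at h3
      exact hcy (Δ.eq_of_δ_eq_one h3).symm
    · rw [h3, h1]
  rcases hW _ (Δ.δ_mem_of_mem_Res ha hb) with h3 | h3
  · rw [Δ.eq_of_δ_eq_one h3]
    exact hr b
  · exact h0 y₀ (by rw [mem_Res, hxy]; exact hso) a ha b (h3.trans h2.symm)

end Ext

end Kill

end Cfsg.Agent.H885.Wf
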