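import Cfsg.Agent.H533.Wf.Aut
import Cfsg.Agent.UGT.U2.FOne.Mv
import Cfsg.Agent.H969.Rot.Three

/-!
# S3826: type rotating elements in the defining characteristic

helper885. `G` acts on the chambers of a building of a group `K ≤ G` with `Sys Δ K p`.
* `exists_fixed` : a `p`-element of `G` fixes a chamber;
* `false_of_rot` : `c ∈ 𝒞` fixes a chamber `x₀` and moves all the types of `J`, `d ∈ 𝒟` fixes `z₀` and is not trivial on the
  residue of type `J` of `z₀`: no configuration;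
* `false_of_pan` : `c`, `d` are both not trivial on a panel of type `j` of fixed chambers: no configuration;
* `exists_moved` : the type of a moved chamber can be changed along a simple bond.
-/

set_option autoImplicit false
set_option linter.unusedSectionVars false

namespace Cfsg.Agent.H885.Wf

open Cfsg Cfsg.Agent.Tits.Core Cfsg.Agent.Tits.Core.Bldg Cfsg.Agent.Tits Cfsg.Agent.Tits.Exchange
open CoxeterSystem Cfsg.Agent.FixBN Cfsg.Agent.UGT.U2.FOne Cfsg.Agent.H533.Wf

section Moved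

variable {I : Type*} {M : CoxeterMatrix I} {W : Type*} [Group W] {cs : CoxeterSystem M W} {C : Type*}
  {Δ : Bldg cs C} [F : OppRes.Cox cs]

local prefix:100 "ℓ" => cs.length

/-- Uniqueness of the second last chamber. -/
theorem eq_of_last {x y y' z : C} {v : W} {i : I} (hl : ℓ (v * cs.simple i) = ℓ v + 1)
    (h1 : Δ.δ x y = v) (h2 : Δ.δ y z = cs.simple i) (h1' : Δ.δ x y' = v) (h2' : Δ.δ y' z = cs.simple i) : y = y' := by
  refine Δ.between_unique (v := v) (w := cs.simple i) ?_ h1 h2 h1' h2'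
  rw [cs.length_simple]
  exact hl

/-- **The type of a moved chamber can be changed along a simple bond.** -/
theorem exists_moved {θ : C → C} (hθ : ∀ a b, Δ.δ (θ a) (θ b) = Δ.δ a b) {i j : I} (hij : i ≠ j) (hM : M i j = 3)
    {x y : C} (hx : θ x = x) (hxy : Δ.δ x y = cs.simple j) (hy : θ y ≠ y) :
    ∃ z w, θ z = z ∧ Δ.δ z w = cs.simple i ∧ θ w ≠ w := by
  by_contra hcon
  push Not at hcon
  have hji : j ≠ i := hij.symm
  have hM' : M j i = 3 := by rw [M.symmetric]; exact hM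
  have l2 : ∀ {a b : I}, a ≠ b → ℓ (cs.simple a * cs.simple b) = 2 := fun h => H969.Rot.length_two cs h
  have l3 : ℓ (cs.simple i * cs.simple j * cs.simple i) = 3 := H969.Rot.length_three cs hij hM
  have l3' : ℓ (cs.simple j * cs.simple i * cs.simple j) = 3 := H969.Rot.length_three cs hji hM'
  have ls : ∀ a : I, ℓ (cs.simple a) = 1 := cs.length_simple
  have hbr : cs.simple i * cs.simple j * cs.simple i = cs.simple j * cs.simple i * cs.simple j := by
    have h1 := cs.simple_mul_simple_pow i j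
    rw [hM] at h1
    have h2 : cs.simple i * cs.simple j * cs.simple i * (cs.simple j * cs.simple i * cs.simple j) = 1 := by
      rw [← h1, pow_succ, pow_two]; simp only [mul_assoc]
    have h3 := mul_eq_one_iff_eq_inv.1 h2
    rw [h3, mul_inv_rev, mul_inv_rev, cs.inv_simple, cs.inv_simple, mul_assoc]
  -- `y = (p₀, m)`, `θ y`
  have hxθy : Δ.δ x (θ y) = cs.simple j := by rw [← hxy, ← hθ x y, hx]
  have hyθy : Δ.δ y (θ y) = cs.simple j := by
    rcases Δ.step_left (z := θ y) (Δ.δ_symm_simple hxy) with h1 | h1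
    · exfalso
      rw [hxθy, cs.simple_mul_simple_self] at h1
      exact hy (Δ.eq_of_δ_eq_one h1).symm
    · rw [h1, hxθy]
  -- `y' = (a, m)`
  obtain ⟨y', hyy'⟩ := Δ.exists_δ y (cs.simple i)
  have hθyy' : Δ.δ (θ y) (θ y') = cs.simple i := by rw [hθ, hyy']
  have h1 : Δ.δ y' (θ y) = cs.simple i * cs.simple j :=
    Δ.δ_mul_of (Δ.δ_symm_simple hyy') hyθy (by rw [l2 hij, ls, ls])
  have h2 : Δ.δ y' (θ y') = cs.simple i * cs.simple j * cs.simple i :=
    Δ.δ_mul_of h1 hθyy' (by rw [l3, l2 hij, ls])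
  -- `u = (a, n)`, `v = (θ a, n)`
  obtain ⟨u, hu1, hu2⟩ : ∃ u, Δ.δ y' u = cs.simple j ∧ Δ.δ u (θ y') = cs.simple i * cs.simple j := by
    have h3 : ℓ (cs.simple j * Δ.δ y' (θ y')) < ℓ (Δ.δ y' (θ y')) := by
      rw [h2, l3, hbr, mul_assoc, cs.simple_mul_simple_cancel_left, l2 hij]
      norm_num
    obtain ⟨u, hu1, hu2⟩ := exists_first Δ h3
    refine ⟨u, hu1, ?_⟩
    rw [hu2, h2, hbr, mul_assoc, cs.simple_mul_simple_cancel_left]
  obtain ⟨v, hv1, hv2⟩ : ∃ v, Δ.δ u v = cs.simple i ∧ Δ.δ v (θ y') = cs.simple j := by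
    have h3 : ℓ (cs.simple i * Δ.δ u (θ y')) < ℓ (Δ.δ u (θ y')) := by
      rw [hu2, cs.simple_mul_simple_cancel_left, l2 hij, ls]
      norm_num
    obtain ⟨v, hv1, hv2⟩ := exists_first Δ h3
    refine ⟨v, hv1, ?_⟩
    rw [hv2, hu2, cs.simple_mul_simple_cancel_left]
  -- `δ x u = w₀`
  have hxy' : Δ.δ x y' = cs.simple j * cs.simple i := Δ.δ_mul_of hxy hyy' (by rw [l2 hji, ls, ls])
  have hxu : Δ.δ x u = cs.simple j * cs.simple i * cs.simple j :=
    Δ.δ_mul_of hxy' hu1 (by rw [l3', l2 hji, ls])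
  have hxv : Δ.δ x v = cs.simple j * cs.simple i * cs.simple j := by
    have h3 : Δ.δ x (θ y') = cs.simple j * cs.simple i := by rw [← hxy', ← hθ x y', hx]
    exact Δ.δ_mul_of h3 (Δ.δ_symm_simple hv2) (by rw [l3', l2 hji, ls])
  -- `x' = (z, l₀)`, `w = (z, n)`
  obtain ⟨x', hx1, hx2⟩ : ∃ x', Δ.δ x x' = cs.simple i ∧ Δ.δ x' u = cs.simple j * cs.simple i := by
    have h3 : ℓ (cs.simple i * Δ.δ x u) < ℓ (Δ.δ x u) := by
      rw [hxu, l3', ← hbr, mul_assoc, cs.simple_mul_simple_cancel_left, l2 hji]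
      norm_num
    obtain ⟨x', hx1, hx2⟩ := exists_first Δ h3
    refine ⟨x', hx1, ?_⟩
    rw [hx2, hxu, ← hbr, mul_assoc, cs.simple_mul_simple_cancel_left]
  obtain ⟨w, hw1, hw2⟩ : ∃ w, Δ.δ x' w = cs.simple j ∧ Δ.δ w u = cs.simple i := by
    have h3 : ℓ (cs.simple j * Δ.δ x' u) < ℓ (Δ.δ x' u) := by
      rw [hx2, cs.simple_mul_simple_cancel_left, l2 hji, ls]
      norm_num
    obtain ⟨w, hw1, hw2⟩ := exists_first Δ h3
    refine ⟨w, hw1, ?_⟩
    rw [hw2, hx2, cs.simple_mul_simple_cancel_left]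
  have hx'f : θ x' = x' := hcon x x' hx hx1
  -- `δ x w`
  have hxw : Δ.δ x w = cs.simple i * cs.simple j := Δ.δ_mul_of hx1 hw1 (by rw [l2 hij, ls, ls])
  have hwv : Δ.δ w v = cs.simple i := by
    rcases Δ.step w u v i hv1 with h3 | h3
    · exfalso
      rw [hw2, cs.simple_mul_simple_self] at h3
      have h4 := Δ.eq_of_δ_eq_one h3
      rw [← h4, hxw] at hxv
      have h5 := congrArg cs.length hxv
      rw [l3', l2 hij] at h5
      omega
    · rw [h3, hw2]
  have hx'v : Δ.δ x' v = cs.simple j * cs.simple i := Δ.δ_mul_of hw1 hwv (by rw [l2 hji, ls, ls])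
  -- `θ u = v`
  have hθu : θ u = v := by
    have e1 : Δ.δ x' (θ u) = cs.simple j * cs.simple i := by rw [← hx2, ← hθ x' u, hx'f]
    have e2 : Δ.δ (θ u) (θ y') = cs.simple j := by rw [hθ]; exact Δ.δ_symm_simple hu1
    refine eq_of_last (x := x') (z := θ y') (v := cs.simple j * cs.simple i) (i := j) ?_ e1 e2 hx'v hv2
    rw [l3', l2 hji]
  -- `θ w = w`
  have hθw : θ w = w := by
    have e1 : Δ.δ x' (θ w) = cs.simple j := by rw [← hw1, ← hθ x' w, hx'f]
    have e2 : Δ.δ (θ w) v = cs.simple i := by rw [← hθu, hθ, hw2]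
    exact eq_of_last (x := x') (z := v) (v := cs.simple j) (i := i) (by rw [l2 hji, ls]) e1 e2 hw1 hwv
  have h3 := hcon w u hθw hw2
  rw [hθu] at h3
  rw [h3] at hv1
  exact Δ.ne_of_δ_simple hv1 rfl

end Moved

end Cfsg.Agent.H885.Wf
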